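import Cfsg.Agent.H511.K547.SpTor
import Cfsg.Agent.H151.K547.ExtRgd

/-!
# S4547, QE10: `ExtRow` for `PSp₄(q)`, `q` even (helper511)

* `gInv3_even`, `gInv3_odd` : three invariant good characters;
* `d3_autExt` : `D3 (AutExt τ)`;
* `ext_Y`, `ext_psp4` : the rows, the special one (`card F = 2 ^ 2 ^ e`, `σ ≠ 1`) as a hypothesis.
-/

set_option autoImplicit false
set_option linter.unusedSectionVars false

open Cfsg

namespace Cfsg.Agent.H511.K547

open Matrix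
open Cfsg.Agent.ClassicalGeometry.Sp4Graph Cfsg.Agent.ClassicalGeometry.Sp4GraphAut
open Cfsg.Agent.TitsThree.SpIdent Cfsg.Agent.TitsThree.WittFrame Cfsg.Agent.TitsThree.WittWeyl
open Cfsg.Agent.H687.FourK.Sp
open CoxeterSystem Cfsg.Agent.ChevalleyStructure.CoxeterGeom Cfsg.Agent.Tits.Roots Cfsg.Agent.Tits.Core
  Cfsg.Agent.Nodes.Reps Cfsg.Agent.Nodes.BNOf Cfsg.Agent.Nodes.StabComb
  Cfsg.Agent.Nodes.Bruhat Cfsg.Agent.Nodes.TypeC Cfsg.Agent.Nodes.WittRoot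
open Cfsg.Agent.H821.K547 Cfsg.Agent.H307.QE
open Cfsg.Agent.Nodes

universe u

variable {F : Type u} [Field F] [Finite F] [CharP F 2]

/-! ### field elements -/

/-- a unit `a ≠ 1` with `a ^ 2 ^ m = a` -/
theorem exists_unit {m f : ℕ} (hm : 2 ≤ m) (hmf : m ∣ f) (hF : Nat.card F = 2 ^ f) :
    ∃ a : Fˣ, a ≠ 1 ∧ a ^ 2 ^ m = a := by
  have h4 : 4 ≤ 2 ^ m := by
    calc 4 = 2 ^ 2 := by norm_num
      _ ≤ 2 ^ m := Nat.pow_le_pow_right (by norm_num) hm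
  have h1 : 2 ^ m - 1 ≠ 1 := by omega
  obtain ⟨p, hp, hpd⟩ := Nat.exists_prime_and_dvd h1
  have : Fact p.Prime := ⟨hp⟩
  have h2 : 2 ^ m - 1 ∣ 2 ^ f - 1 := by
    obtain ⟨j, rfl⟩ := hmf
    rw [pow_mul]
    exact Nat.sub_one_dvd_pow_sub_one _ _
  have h3 : p ∣ Nat.card Fˣ := by
    rw [Nat.card_units, hF]
    exact hpd.trans h2
  obtain ⟨a, ha⟩ := exists_prime_orderOf_dvd_card' (G := Fˣ) p h3
  refine ⟨a, ?_, ?_⟩
  · rintro rfl
    rw [orderOf_one] at ha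
    exact hp.one_lt.ne ha
  · have h5 : a ^ (2 ^ m - 1) = 1 := orderOf_dvd_iff_pow_eq_one.1 (by rw [ha]; exact hpd)
    have h6 : 2 ^ m = (2 ^ m - 1) + 1 := by omega
    rw [h6, pow_succ, h5, one_mul]

/-! ### stability of elements of the torus -/

variable {β : MulAut (Y 2 F)} {σ : Equiv.Perm (Fin 2)}

theorem apply_conj_pow {x : Y 2 F} {k : ℕ} (hβ : β = MulAut.conj x * gY F ^ k) (y : Y 2 F) :
    β y = x * (gY F ^ k) y * x⁻¹ := by rw [hβ]; rfl

theorem stable_of_trace (hN : Nrm (RR F) β σ) {t : TT 2 F} (hA : tA (β t) = tA (t : Y 2 F))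
    (hB : tB (β t) = tB (t : Y 2 F)) : ∃ x ∈ NN csB (RR F).nsys, x * (t : Y 2 F) * x⁻¹ = β t := by
  have h1 : β (t : Y 2 F) ∈ TT 2 F := (hN.fixT _).2 t.2
  exact nc_of_trace (t := t) (t' := ⟨_, h1⟩) hA hB

theorem tA_even {x : Y 2 F} {j : ℕ} (hβ : β = MulAut.conj x * gY F ^ (2 * j)) (y : Y 2 F) :
    tA (β y) = tA y ^ 2 ^ j := by rw [apply_conj_pow hβ, tA_conj, tA_gY_pow]

theorem tB_even {x : Y 2 F} {j : ℕ} (hβ : β = MulAut.conj x * gY F ^ (2 * j)) (y : Y 2 F) :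
    tB (β y) = tB y ^ 2 ^ j := by rw [apply_conj_pow hβ, tB_conj, tB_gY_pow]

theorem tA_odd {x : Y 2 F} {j : ℕ} (hβ : β = MulAut.conj x * gY F ^ (2 * j + 1)) (y : Y 2 F) :
    tA (β y) = tB y ^ 2 ^ j := by rw [apply_conj_pow hβ, tA_conj, tA_gY_odd]

theorem tB_odd {x : Y 2 F} {j : ℕ} (hβ : β = MulAut.conj x * gY F ^ (2 * j + 1)) (y : Y 2 F) :
    tB (β y) = tA y ^ 2 ^ (j + 1) := by rw [apply_conj_pow hβ, tB_conj, tB_gY_odd]

theorem pr_one : pr (1 : Fˣ) = 0 := by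
  unfold pr
  rw [inv_one, Units.val_one, CharTwo.add_self_eq_zero]

theorem pr_ne_zero {a : Fˣ} (h : a * a ≠ 1) : pr a ≠ 0 := by
  intro e
  apply h
  unfold pr at e
  have h1 : (a : F) = ((a⁻¹ : Fˣ) : F) := by
    have := eq_neg_of_add_eq_zero_left e
    rwa [CharTwo.neg_eq] at this
  have h2 : a = a⁻¹ := Units.ext h1
  exact eq_inv_iff_mul_eq_one.1 h2

theorem pr_pow (a : Fˣ) (n : ℕ) : pr a ^ 2 ^ n = pr (a ^ 2 ^ n) := by
  unfold pr
  rw [add_pow_char_pow, ← inv_pow, Units.val_pow_eq_pow_val, Units.val_pow_eq_pow_val]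

theorem sq_ne_one {a : Fˣ} (h : a ≠ 1) : a * a ≠ 1 := by
  intro e
  apply h
  apply Units.ext
  have h1 : (a : F) ^ 2 = 1 ^ 2 := by
    rw [one_pow, pow_two, ← Units.val_mul, e, Units.val_one]
  exact CharTwo.sq_injective h1

/-- **Type preserving automorphisms, `q` a square.** -/
theorem gInv3_even (hC : H601.OddDeg.TwoC (Y 2 F)) (hN : Nrm (RR F) β σ) {x : Y 2 F} {j : ℕ}
    (hβ : β = MulAut.conj x * gY F ^ (2 * j)) {f : ℕ} (hF : Nat.card F = 2 ^ f) (hf : 2 ∣ f) : GInv3 β := by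
  obtain ⟨a, ha1, ha⟩ := exists_unit le_rfl hf hF
  have ha3 : a * a * a = 1 := by
    have : a ^ 4 = a := ha
    have h2 : a * a * a * a = 1 * a := by
      rw [one_mul]
      exact (by rw [pow_succ, pow_succ, pow_two] : a * a * a * a = a ^ 4).trans this
    exact mul_right_cancel h2
  have hpa : pr a = 1 := by
    have h1 : (a : F) * a * a = 1 := by rw [← Units.val_mul, ← Units.val_mul, ha3, Units.val_one]
    have hne : (a : F) ≠ 1 := fun e => ha1 (Units.ext e)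
    have h2 : ((a : F) - 1) * ((a : F) * a + a + 1) = 0 := by linear_combination h1
    have h3 := (mul_eq_zero.1 h2).resolve_left (sub_ne_zero.2 hne)
    have h4 : ((a⁻¹ : Fˣ) : F) = (a : F) * a := by
      have : a⁻¹ = a * a := inv_eq_of_mul_eq_one_left ha3
      rw [this, Units.val_mul]
    unfold pr
    rw [h4]
    have h5 : (2 : F) = 0 := CharTwo.two_eq_zero
    linear_combination h3 - h5
  obtain ⟨t₁, h10, h11⟩ := hex a 1
  obtain ⟨t₂, h20, h21⟩ := hex a a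
  have A1 : tA (t₁ : Y 2 F) = 1 := by rw [tA_tor, h10, h11, hpa, pr_one, add_zero]
  have B1 : tB (t₁ : Y 2 F) = 0 := by rw [tB_tor, h10, h11, hpa, pr_one, mul_zero]
  have A2 : tA (t₂ : Y 2 F) = 0 := by rw [tA_tor, h20, h21, hpa, CharTwo.add_self_eq_zero]
  have B2 : tB (t₂ : Y 2 F) = 1 := by rw [tB_tor, h20, h21, hpa, mul_one]
  have h0 : (0 : F) ^ 2 ^ j = 0 := zero_pow (pow_ne_zero _ two_ne_zero)
  have hne : ∀ {t : TT 2 F}, ev (0, true) t = a → (t : Y 2 F) ≠ 1 := by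
    intro t ht e
    apply ha1
    rw [← ht, show t = 1 from Subtype.ext e, map_one]
  refine H118.K547.gInv3_of_elts hN (hGG F) hC comm t₁.2 t₂.2 (hne h10) (hne h20) ?_
    (stable_of_trace hN ?_ ?_) (stable_of_trace hN ?_ ?_)
  · intro x _ e
    have h1 := tA_conj x (t₁ : Y 2 F)
    rw [e, A1, A2] at h1
    exact zero_ne_one h1
  · rw [tA_even hβ, A1, one_pow]
  · rw [tB_even hβ, B1, h0]
  · rw [tA_even hβ, A2, h0]
  · rw [tB_even hβ, B2, one_pow]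

theorem pow_two_mul_of {S : F} {m : ℕ} (h : S ^ 2 ^ m = S) (v : ℕ) : S ^ 2 ^ (m * v) = S := by
  induction v with
  | zero => rw [mul_zero, pow_zero, pow_one]
  | succ v ih => rw [mul_add, mul_one, pow_add, pow_mul, ih, h]

/-- **Automorphisms which swap the types, the odd part of `f` is at least three.** -/
theorem gInv3_odd (hC : H601.OddDeg.TwoC (Y 2 F)) (hN : Nrm (RR F) β σ) {x : Y 2 F} {k : ℕ}
    (hβ : β = MulAut.conj x * gY F ^ k) (hk : Odd k) {f m : ℕ} (hF : Nat.card F = 2 ^ f) (hmf : m ∣ f) (hmk : m ∣ k)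
    (hm : 3 ≤ m) (hmo : Odd m) : GInv3 β := by
  obtain ⟨j, rfl⟩ := hk
  obtain ⟨l, rfl⟩ := hmo
  obtain ⟨u, hu⟩ := hmk
  have huo : Odd u := by
    by_contra h
    rw [Nat.not_odd_iff_even] at h
    obtain ⟨v, rfl⟩ := h
    have : 2 ∣ 2 * j + 1 := by rw [hu]; exact ⟨(2 * l + 1) * v, by ring⟩
    omega
  obtain ⟨v, rfl⟩ := huo
  have hj : j = l + (2 * l + 1) * v := by nlinarith [hu]
  obtain ⟨a, ha1, ha⟩ := exists_unit (by omega : 2 ≤ 2 * l + 1) hmf hF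
  -- the second eigenvalue
  set b : Fˣ := a ^ 2 ^ (l + 1) * a⁻¹ with hb
  have hbm : b ^ 2 ^ (2 * l + 1) = b := by
    rw [hb, mul_pow, inv_pow, ha, ← pow_mul, mul_comm (2 ^ (l + 1)), pow_mul, ha]
  have ha2 : (a ^ 2 ^ (l + 1)) ^ 2 ^ (l + 1) = a * a := by
    rw [← pow_mul, ← pow_add, show l + 1 + (l + 1) = (2 * l + 1) + 1 by ring, pow_succ, pow_mul, ha, pow_two]
  have hb2 : b ^ 2 ^ (l + 1) = a * b⁻¹ := by
    rw [hb, mul_pow, ha2, inv_pow, _root_.mul_inv_rev, inv_inv, mul_assoc]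
  have hb1 : b ≠ 1 := by
    intro e
    have h1 : a ^ 2 ^ (l + 1) = a := by
      rw [hb, mul_inv_eq_one] at e
      exact e
    rw [h1, h1] at ha2
    exact ha1 (mul_eq_left.1 ha2.symm)
  -- the general computation
  have key : ∀ c d : Fˣ, c ^ 2 ^ (2 * l + 1) = c → d ^ 2 ^ (2 * l + 1) = d → c * d = c ^ 2 ^ (l + 1) →
      d ^ 2 ^ (l + 1) = c * d⁻¹ → ∀ t : TT 2 F, ev (0, true) t = c → ev (1, true) t = d →
      tB (t : Y 2 F) = tA (t : Y 2 F) ^ 2 ^ (l + 1) ∧ tA (β t) = tA (t : Y 2 F) ∧ tB (β t) = tB (t : Y 2 F) := by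
    intro c d hc hd hcd hd2 t h0 h1
    have e1 : tA (t : Y 2 F) ^ 2 ^ (2 * l + 1) = tA (t : Y 2 F) := by
      rw [tA_tor, h0, h1, add_pow_char_pow, pr_pow, pr_pow, hc, hd]
    have e2 : tB (t : Y 2 F) = tA (t : Y 2 F) ^ 2 ^ (l + 1) := by
      rw [tA_tor, tB_tor, h0, h1, add_pow_char_pow, pr_pow, pr_pow, hd2, ← hcd]
      unfold pr
      rw [_root_.mul_inv_rev, _root_.mul_inv_rev, inv_inv]
      push_cast
      ring
    refine ⟨e2, ?_, ?_⟩
    · rw [tA_odd hβ, e2, ← pow_mul, ← pow_add, show l + 1 + j = (2 * l + 1) * (v + 1) by rw [hj]; ring]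
      exact pow_two_mul_of e1 _
    · rw [tB_odd hβ, e2, show j + 1 = (2 * l + 1) * v + (l + 1) by rw [hj]; ring, pow_add, pow_mul,
        pow_two_mul_of e1]
  obtain ⟨t₁, h10, h11⟩ := hex a b
  obtain ⟨t₂, h20, h21⟩ := hex (a ^ 2) (b ^ 2)
  have hab : a * b = a ^ 2 ^ (l + 1) := by rw [hb, mul_comm, inv_mul_cancel_right]
  obtain ⟨c1, c2, c3⟩ := key a b ha hbm hab hb2 t₁ h10 h11
  obtain ⟨d1, d2, d3⟩ := key (a ^ 2) (b ^ 2) (by rw [← pow_mul, mul_comm, pow_mul, ha])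
    (by rw [← pow_mul, mul_comm, pow_mul, hbm]) (by rw [← mul_pow, hab, ← pow_mul, mul_comm, pow_mul])
    (by rw [← pow_mul, mul_comm, pow_mul, hb2, mul_pow, inv_pow]) t₂ h20 h21
  have hA : tA (t₂ : Y 2 F) = tA (t₁ : Y 2 F) ^ 2 := by
    rw [tA_tor, tA_tor, h10, h11, h20, h21, CharTwo.add_sq]
    have := pr_pow a 1
    have h2 := pr_pow b 1
    rw [pow_one] at this h2
    rw [this, h2]
  have hB : tB (t₂ : Y 2 F) = tB (t₁ : Y 2 F) ^ 2 := by
    rw [tB_tor, tB_tor, h10, h11, h20, h21]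
    have := pr_pow a 1
    have h2 := pr_pow b 1
    rw [pow_one] at this h2
    rw [← this, ← h2]
    ring
  have hne : ∀ {t : TT 2 F}, ev (0, true) t ≠ 1 → (t : Y 2 F) ≠ 1 := by
    intro t ht e
    apply ht
    rw [show t = 1 from Subtype.ext e, map_one]
  refine H118.K547.gInv3_of_elts hN (hGG F) hC comm t₁.2 t₂.2 (hne (by rw [h10]; exact ha1))
    (hne (by rw [h20, pow_two]; exact sq_ne_one ha1)) ?_ (stable_of_trace hN c2 c3) (stable_of_trace hN d2 d3)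
  intro x _ e
  have g1 := tA_conj x (t₁ : Y 2 F)
  have g2 := tB_conj x (t₁ : Y 2 F)
  rw [e, hA] at g1
  rw [e, hB] at g2
  -- `S ∈ {0, 1}`, `P = 1`
  have hP0 : tB (t₁ : Y 2 F) ≠ 0 := by
    rw [tB_tor, h10, h11]
    exact mul_ne_zero (pr_ne_zero (sq_ne_one ha1)) (pr_ne_zero (sq_ne_one hb1))
  have hP : tB (t₁ : Y 2 F) = 1 := by
    have : tB (t₁ : Y 2 F) * (tB (t₁ : Y 2 F) - 1) = 0 := by linear_combination g2
    exact sub_eq_zero.1 ((mul_eq_zero.1 this).resolve_left hP0)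
  have hS0 : tA (t₁ : Y 2 F) ≠ 0 := by
    intro h0
    rw [h0, zero_pow (pow_ne_zero _ two_ne_zero)] at c1
    exact hP0 c1
  have hS : tA (t₁ : Y 2 F) = 1 := by
    have : tA (t₁ : Y 2 F) * (tA (t₁ : Y 2 F) - 1) = 0 := by linear_combination g1
    exact sub_eq_zero.1 ((mul_eq_zero.1 this).resolve_left hS0)
  rw [tA_tor, h10, h11] at hS
  rw [tB_tor, h10, h11] at hP
  have q1 : pr a * pr a + pr a + 1 = 0 := by
    have h5 : (2 : F) = 0 := CharTwo.two_eq_zero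
    linear_combination (pr a) * hS - hP + pr a * h5
  have q2 : pr a ^ 2 ^ 2 = pr a := by
    have h5 : (2 : F) = 0 := CharTwo.two_eq_zero
    have h6 : pr a * pr a = pr a + 1 := by linear_combination q1 - (pr a + 1) * h5
    have h7 : pr a ^ 2 ^ 2 = (pr a * pr a) * (pr a * pr a) := by ring
    rw [h7, h6]
    linear_combination q1
  have q3 : pr a ^ 2 ^ (2 * l + 1) = pr a := by rw [pr_pow, ha]
  rw [pow_succ, pow_mul, pow_two_mul_of q2] at q3
  have h5 : (2 : F) = 0 := CharTwo.two_eq_zero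
  have : (1 : F) = 0 := by linear_combination q1 - q3 - pr a * h5
  exact one_ne_zero this

/-! ### the parity -/

/-- `σ = 1`: `k` is even -/
theorem even_of_fix (hN : Nrm (RR F) β σ) (hσ : σ = 1) {x : Y 2 F} {k : ℕ} (hβ : β = MulAut.conj x * gY F ^ k) :
    Even k := by
  by_contra hk
  rw [Nat.not_even_iff_odd] at hk
  obtain ⟨j, rfl⟩ := hk
  obtain ⟨y, hy1⟩ := Subgroup.ne_bot_iff_exists_ne_one.1 (X_ne_bot (RR F) (isRoot_sr csB (isCartan 2) (1 : Fin 2)))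
  have hy1' : (y : Y 2 F) ≠ 1 := fun e => hy1 (Subtype.ext e)
  obtain ⟨c, hc⟩ := lm_of_mem y.2
  have hc0 := LM.ne_zero hc hy1'
  have h1 : β y ∈ XX 2 F (sr (1 : Fin 2)) := by
    have := (hN.diag.pos (1 : Fin 2) y).2 y.2
    rwa [hσ] at this
  obtain ⟨d, hd⟩ := lm_of_mem h1
  have h2 := hd.TM
  rw [apply_conj_pow hβ, TM.conj_iff, pow_succ, MulAut.mul_apply] at h2
  have h3 : SM (toSp (gY F (y : Y 2 F)) : Matrix I4 I4 F) c := by
    rw [toSp_gY]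
    exact hc.graph
  exact (h3.map_pow j fun i k => toSp_gY_pow j _ i k).not_TM (pow_ne_zero _ hc0) h2

theorem perm_one : ∀ σ : Equiv.Perm (Fin 2), σ ≠ 1 → σ 1 = 0 := by decide

/-- `σ ≠ 1`: `k` is odd -/
theorem odd_of_ne (hN : Nrm (RR F) β σ) (hσ : σ ≠ 1) {x : Y 2 F} {k : ℕ} (hβ : β = MulAut.conj x * gY F ^ k) :
    Odd k := by
  by_contra hk
  rw [Nat.not_odd_iff_even, even_iff_two_dvd] at hk
  obtain ⟨j, rfl⟩ := hk
  have hσ1 : σ 1 = 0 := perm_one σ hσ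
  obtain ⟨y, hy1⟩ := Subgroup.ne_bot_iff_exists_ne_one.1 (X_ne_bot (RR F) (isRoot_sr csB (isCartan 2) (1 : Fin 2)))
  have hy1' : (y : Y 2 F) ≠ 1 := fun e => hy1 (Subtype.ext e)
  obtain ⟨c, hc⟩ := lm_of_mem y.2
  have h1 : β y ∈ XX 2 F (sr (0 : Fin 2)) := by
    have := (hN.diag.pos (1 : Fin 2) y).2 y.2
    rwa [hσ1] at this
  obtain ⟨d, hd⟩ := sm_of_mem h1
  have h2 : TM (toSp (β y) : Matrix I4 I4 F) := by
    rw [apply_conj_pow hβ, TM.conj_iff]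
    exact hc.TM.map_pow j fun i k => toSp_gY_pow j _ i k
  have hd0 : d = 0 := by
    by_contra h
    exact hd.not_TM h h2
  rw [hd0] at hd
  exact hy1' ((map_eq_one_iff β β.injective).1 (SM.eq_one hd))

/-! ### `D3` -/

theorem center_Y : Subgroup.center (Y 2 F) = ⊥ := by
  rw [eq_bot_iff]
  intro y hy
  have h1 : spE F y ∈ Subgroup.center (Sp4 F) := by
    rw [Subgroup.mem_center_iff] at hy ⊢
    intro z
    obtain ⟨w, rfl⟩ := (spE F).surjective z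
    rw [← map_mul, ← map_mul, hy]
  have h2 : spE F y = 1 := by
    rw [center_eq_bot (by norm_num), Subgroup.mem_bot] at h1
    exact h1
  rw [Subgroup.mem_bot]
  exact (map_eq_one_iff (spE F) (spE F).injective).1 h2

theorem comm_of_sq {P : Type*} [Group P] (h : ∀ x : P, x * x = 1) (x y : P) : x * y = y * x := by
  have h1 := h (x * y)
  have hx : x⁻¹ = x := inv_eq_of_mul_eq_one_left (h x)
  have hy : y⁻¹ = y := inv_eq_of_mul_eq_one_left (h y)
  have h2 : x * y = (x * y)⁻¹ := (inv_eq_of_mul_eq_one_left h1).symm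
  rw [h2, _root_.mul_inv_rev, hx, hy]

theorem rk_one' {f : ℕ} (hF : Nat.card F = 2 ^ f) : Rk f (XX 2 F (sr (1 : Fin 2))) := by
  have hsq : ∀ x : XX 2 F (sr (1 : Fin 2)), x * x = 1 := fun x => Subtype.ext (sq_last (by decide) _ x.2)
  refine H151.K547.rk_of_elem (comm_of_sq hsq) hsq ?_
  have hnx : nx (1 : Fin 2) = (1, true) := by decide
  let z : F → XX 2 F (sr (1 : Fin 2)) := fun c =>
    ⟨⟨(frame 2 F).Z (1, true) (adm c), (frame 2 F).isIso_Z _ _⟩, by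
      refine Subgroup.mem_subgroupOf.2 ?_
      rw [WittRGD.rg_sr, hnx, PG_self]
      exact ⟨_, rfl⟩⟩
  rw [← hF]
  refine Nat.card_le_card_of_injective z fun c d hcd => ?_
  have h1 := lm_Z (y := (z c : Y 2 F)) (p := adm c) rfl (.inr 1) (.inl 1)
  have h2 := lm_Z (y := (z d : Y 2 F)) (p := adm d) rfl (.inr 1) (.inl 1)
  rw [hcd, h2] at h1
  simp only [and_self, if_true] at h1
  exact (mul_right_cancel₀ ((frame 2 F).η_ne _) (add_left_cancel h1)).symm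

theorem rk_zero' {f : ℕ} (hF : Nat.card F = 2 ^ f) : Rk f (XX 2 F (sr (0 : Fin 2))) := by
  have hsq : ∀ x : XX 2 F (sr (0 : Fin 2)), x * x = 1 := fun x => Subtype.ext (sq_zero _ x.2)
  refine H151.K547.rk_of_elem (comm_of_sq hsq) hsq ?_
  have hnx : nx (0 : Fin 2) = (1, false) := by decide
  let z : F → XX 2 F (sr (0 : Fin 2)) := fun c =>
    ⟨⟨(frame 2 F).X (0, true) (1, false) c, (frame 2 F).isIso_X _ _ _⟩, by
      refine Subgroup.mem_subgroupOf.2 ?_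
      rw [WittRGD.rg_sr, hnx, PG_ne _ (by decide)]
      exact ⟨_, rfl⟩⟩
  rw [← hF]
  refine Nat.card_le_card_of_injective z fun c d hcd => ?_
  have h1 := sm_X (y := (z c : Y 2 F)) (t := c) rfl (.inr 0) (.inr 1)
  have h2 := sm_X (y := (z d : Y 2 F)) (t := d) rfl (.inr 0) (.inr 1)
  rw [hcd, h2] at h1
  simp only [and_self, if_true] at h1
  exact (add_left_cancel (add_right_cancel h1)).symm

theorem rk_U {f : ℕ} (hF : Nat.card F = 2 ^ f) : Rk (f + f) (RGD.Sup (XX 2 F) (RGD.Pos csB (isCartan 2))) :=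
  H151.K547.rk_two (RR F) (i := (0 : Fin 2)) (j := 1) (by decide) (rk_zero' hF) (rk_one' hF)

theorem dvd_k {f e m k N : ℕ} (hfe : f = 2 ^ e * m) (hmo : Odd m) (h : 2 * f ∣ k * 2 ^ N) : m ∣ k := by
  have h1 : m ∣ k * 2 ^ N := (dvd_trans ⟨2 * 2 ^ e, by rw [hfe]; ring⟩ h)
  exact (Nat.Coprime.pow_right N (Nat.coprime_two_right.2 hmo)).dvd_of_dvd_mul_right h1

/-- the odd part of `f` is at least three -/
theorem d3_of_three {f e m : ℕ} (hf : 1 ≤ f) (hF : Nat.card F = 2 ^ f) (hfe : f = 2 ^ e * m) (hm : 3 ≤ m)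
    (hmo : Odd m) {τ : MulAut (Y 2 F)} (hτ : TwoPow τ) (hn : ¬ IsInn τ) : D3 (AutExt τ) := by
  refine H151.K547.D3_of_rk' (RR F) (hGG F) center_Y (rk_U hF) hτ hn ?_
  rintro g - ⟨N, hN⟩ hdisj
  obtain ⟨x, k, hg⟩ := exists_pow g
  have h1 : 2 * f ∣ k * 2 ^ N := dvd_of_pow_eq_one hf hF (x := x) (by rw [← hg]; exact hN)
  obtain ⟨u, hu⟩ := dvd_k hfe hmo h1
  obtain ⟨x', hx'⟩ := conj_mul_pow x k (2 ^ (e + 1))
  have h2 : gY F ^ (k * 2 ^ (e + 1)) = 1 := gY_pow_eq_one hF ⟨u, by rw [hu, hfe]; ring⟩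
  rw [h2, mul_one, ← hg] at hx'
  have h3 : g ^ 2 ^ (e + 1) = 1 := by
    have := hdisj ((2 ^ (e + 1) : ℕ) : ℤ) x' (by rw [zpow_natCast]; exact hx')
    rwa [zpow_natCast] at this
  have h4 : orderOf g ≤ 2 ^ (e + 1) := Nat.le_of_dvd (by positivity) (orderOf_dvd_of_pow_eq_one h3)
  have h5 : f + f = 2 ^ (e + 1) * m := by rw [hfe]; ring
  rw [h5]
  have h6 : 0 < 2 ^ (e + 1) := by positivity
  nlinarith

/-- type preserving automorphisms -/
theorem d3_of_even {f j : ℕ} (hf : 1 ≤ f) (hF : Nat.card F = 2 ^ f) {τ : MulAut (Y 2 F)} {x : Y 2 F}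
    (hβ : τ = MulAut.conj x * gY F ^ (2 * j)) (hτ : TwoPow τ) (hn : ¬ IsInn τ) : D3 (AutExt τ) := by
  refine H151.K547.D3_of_rk' (RR F) (hGG F) center_Y (rk_U hF) hτ hn ?_
  rintro g hE - hdisj
  have hmem : g ∈ AutExt τ := by
    rw [← hE]
    exact H151.K547.self_mem_autExt g
  -- pass to `Out`
  let q : MulAut (Y 2 F) →* Cfsg.Out (Y 2 F) := QuotientGroup.mk' _
  have hq : ∀ s : Y 2 F, q (MulAut.conj s) = 1 := fun s => (QuotientGroup.eq_one_iff _).2 ⟨s, rfl⟩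
  have h1 : q g ∈ Subgroup.zpowers (q τ) := by
    have h2 : q g ∈ (AutExt τ).map q := ⟨g, hmem, rfl⟩
    have h3 : (AutExt τ).map q ≤ Subgroup.zpowers (q τ) := by
      rw [AutExt, Subgroup.map_sup, sup_le_iff]
      constructor
      · rintro _ ⟨_, ⟨s, rfl⟩, rfl⟩
        rw [hq]
        exact one_mem _
      · rintro _ ⟨_, ⟨i, rfl⟩, rfl⟩
        exact ⟨i, (map_zpow q τ i).symm⟩
    exact h3 h2
  have h2 : q τ ^ f = 1 := by
    rw [hβ, map_mul, hq, one_mul, map_pow, ← pow_mul, ← map_pow,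
      gY_pow_eq_one hF (k := 2 * j * f) ⟨j, by ring⟩, map_one]
  obtain ⟨i, hi⟩ := h1
  have h3 : q (g ^ f) = 1 := by
    have hi' : q τ ^ i = q g := hi
    rw [map_pow, ← hi', ← zpow_natCast, ← _root_.zpow_mul, mul_comm, _root_.zpow_mul, zpow_natCast, h2, _root_.one_zpow]
  obtain ⟨s, hs⟩ := (QuotientGroup.eq_one_iff _).1 h3
  have h4 : g ^ f = 1 := by
    have := hdisj (f : ℤ) s (by rw [zpow_natCast]; exact hs.symm)
    rwa [zpow_natCast] at this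
  have h5 : orderOf g ≤ f := Nat.le_of_dvd hf (orderOf_dvd_of_pow_eq_one h4)
  omega

/-! ### the rows -/

theorem extRow_conj {S : Type u} [Group S] {τ : MulAut S} (g : S) (h : ExtRow S (MulAut.conj g * τ)) : ExtRow S τ := by
  have h1 : GInv3 (MulAut.conj g * τ) ↔ GInv3 τ := by
    refine ⟨gInv3_conj g, fun h2 => gInv3_conj g⁻¹ ?_⟩
    rwa [map_inv, inv_mul_cancel_left]
  rw [ExtRow, ← h1, ← H151.K547.autExt_conj_mul τ g]
  exact h

/-- **The rows of `Y 2 F ≅ PSp₄(F)`.** -/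
theorem ext_Y (hC : H601.OddDeg.TwoC (Y 2 F)) {f : ℕ} (hf : 2 ≤ f) (hF : Nat.card F = 2 ^ f)
    (hsp : (∃ e, 1 ≤ e ∧ f = 2 ^ e) → ∀ (β : MulAut (Y 2 F)) (σ : Equiv.Perm (Fin 2)), Nrm (RR F) β σ → σ ≠ 1 →
      ¬ IsInn β → ExtRow (Y 2 F) β) : H42.K547.Even.ExtAll (Y 2 F) := by
  intro τ hτ hn
  obtain ⟨g, σ, hN⟩ := exists_nrm (RR F) (hGG F) hτ
  set β := MulAut.conj g * τ with hβdef
  apply extRow_conj g
  rw [← hβdef]
  have hτ' : TwoPow β := TwoPow.conj_mul hτ g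
  have hn' : ¬ IsInn β := by
    rintro ⟨s, hs⟩
    apply hn
    refine ⟨g⁻¹ * s, fun x => ?_⟩
    have h1 : g * τ x * g⁻¹ = s * x * s⁻¹ := hs x
    have h2 : τ x = g⁻¹ * (g * τ x * g⁻¹) * g := by group
    rw [h2, h1]
    group
  obtain ⟨x, k, hβ⟩ := exists_pow β
  obtain ⟨N, hpow⟩ := hN.pow
  have hdvd : 2 * f ∣ k * 2 ^ N := dvd_of_pow_eq_one (by omega) hF (x := x) (by rw [← hβ]; exact hpow)
  obtain ⟨e, m, hmo, hfe⟩ := Nat.exists_eq_two_pow_mul_odd (n := f) (by omega)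
  have hmk := dvd_k hfe hmo hdvd
  by_cases hσ : σ = 1
  · -- type preserving
    have hk := even_of_fix hN hσ hβ
    rw [even_iff_two_dvd] at hk
    obtain ⟨j, rfl⟩ := hk
    have h2f : 2 ∣ f := by
      by_contra h
      have hfo : Odd f := by
        rw [← Nat.not_even_iff_odd, even_iff_two_dvd]
        exact h
      have h1 : f ∣ 2 * j := (Nat.Coprime.pow_right N (Nat.coprime_two_right.2 hfo)).dvd_of_dvd_mul_right
        ((Dvd.intro_left 2 rfl).trans hdvd)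
      have h2 : f ∣ j := (Nat.coprime_two_right.2 hfo).dvd_of_dvd_mul_left h1
      have h3 := gY_pow_eq_one hF (Nat.mul_dvd_mul_left 2 h2)
      rw [h3, mul_one] at hβ
      exact hn' ⟨x, fun y => by rw [hβ]; rfl⟩
    exact ⟨fun _ => d3_of_even (by omega) hF hβ hτ' hn', fun _ => gInv3_even hC hN hβ hF h2f⟩
  · have hk := odd_of_ne hN hσ hβ
    rcases Nat.lt_or_ge m 3 with hm | hm
    · have hm1 : m = 1 := by
        obtain ⟨l, rfl⟩ := hmo
        omega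
      subst hm1
      rw [mul_one] at hfe
      refine hsp ⟨e, ?_, hfe⟩ β σ hN hσ hn'
      rcases e with _ | e
      · rw [pow_zero] at hfe
        omega
      · omega
    · have hmf : m ∣ f := ⟨2 ^ e, by rw [hfe, mul_comm]⟩
      exact ⟨fun _ => d3_of_three (by omega) hF hfe hm hmo hτ' hn',
        fun _ => gInv3_odd hC hN hβ hk hF hmf hmk hm hmo⟩

end Cfsg.Agent.H511.K547
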