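import Cfsg.Agent.H511.K547.SpSpec
import Cfsg.Agent.H671.K547.Congr
import Cfsg.Agent.H742.TwoC
import Cfsg.Agent.S0270

/-!
# S4547, QE10: the `ext` rows of `PSp₄(q)`, `q > 2` even (helper511)

* `ext_psp4` : `ExtAll (PSp 2 F)`;
* `ge_psp4` : the field `psp4` of `H42.K547.Even.EvenSmall`.
-/

set_option autoImplicit false

open Cfsg

namespace Cfsg.Agent.H511.K547

open Cfsg.Agent.H821.K547 Cfsg.Agent.H307.QE
open Cfsg.Agent.H687.FourK.Sp (Y eqv)

/-- **The rows of `PSp₄(q)`, `q > 2` even.** -/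
theorem ext_psp4 {F : Type} [Field F] [Fintype F] [CharP F 2] (h4 : 4 ≤ Fintype.card F) :
    H42.K547.Even.ExtAll (PSp 2 F) := by
  have hs : IsSimpleGroup (PSp 2 F) := S0270.result 2 le_rfl fun _ => by omega
  have hfin : Finite (PSp 2 F) := Finite.of_surjective _ (QuotientGroup.mk_surjective
    (s := Subgroup.center (Matrix.symplecticGroup (Fin 2) F)))
  have hlie : IsLieTypeChar 2 (PSp 2 F) :=
    Or.inr (Or.inl ⟨F, inferInstance, inferInstance, inferInstance, 2, le_rfl, fun _ => by omega, ⟨MulEquiv.refl _⟩⟩)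
  have hC : H601.OddDeg.TwoC (PSp 2 F) := H742.TwoC.twoC_charTwo hlie
  have hC' : H601.OddDeg.TwoC (Y 2 F) := hC.congr (eqv (m := 2) (F := F)).symm
  have hsY : IsSimpleGroup (Y 2 F) := (MulEquiv.isSimpleGroup_congr (eqv (m := 2) (F := F))).2 hs
  have hna : ¬ IsMulCommutative (Y 2 F) := by
    intro hcomm
    have hc : Subgroup.center (Y 2 F) = ⊤ := by
      rw [eq_top_iff]
      intro y _
      rw [Subgroup.mem_center_iff]
      intro z
      exact hcomm.is_comm.comm z y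
    rw [center_Y] at hc
    exact bot_ne_top hc
  obtain ⟨f, -, hF⟩ := FiniteField.card F 2
  have hF' : Nat.card F = 2 ^ (f : ℕ) := by rw [Nat.card_eq_fintype_card, hF]
  have hf : 2 ≤ (f : ℕ) := by
    by_contra h
    have h1 : (f : ℕ) ≤ 1 := by omega
    have h2 : 2 ^ (f : ℕ) ≤ 2 ^ 1 := Nat.pow_le_pow_right (by norm_num) h1
    rw [hF] at h4
    omega
  have hE := ext_Y (F := F) hC' hf hF' fun ⟨e, _, he⟩ β σ hN hσ ho => special_Y hna hN hσ ho hf hF' ⟨e, he⟩
  intro τ h2 ho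
  refine Cfsg.Agent.H671.K547.extRow_congr (eqv (m := 2) (F := F)).symm (hE _ (Cfsg.Agent.H671.K547.twoPow_congr _ h2) ?_)
  exact fun hi => ho ((Cfsg.Agent.H671.K547.isInn_congr_iff _).1 hi)

/-- the field `psp4` of `EvenSmall` -/
theorem ge_psp4 {F : Type} [Field F] [Fintype F] [CharP F 2] (h4 : 4 ≤ Fintype.card F) :
    H42.K547.Even.GE (PSp 2 F) := fun τ h2 ho => Or.inr (ext_psp4 h4 τ h2 ho)

end Cfsg.Agent.H511.K547
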