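import Cfsg.Agent.H511.K547.SpGraph
import Cfsg.Agent.H118.K547.TSer
import Cfsg.Agent.H42.K547.EvenDefs

/-!
# S4547, QE10: stable elements of the torus of `Sp₄(F)`, `F` of characteristic two (helper511)

* `coe_tor`, `tA_tor`, `tB_tor` : the matrix and the traces of an element of the torus;
* `nc_of_trace` : elements of the torus with the same traces are conjugate under `N`;
* `lm_of_mem`, `sm_of_mem` : the root groups of the simple roots;
* `even_of_fix`, `odd_of_swap` : `β = conj x * gY ^ k`: `k` is even iff `σ = 1`.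
-/

set_option autoImplicit false
set_option linter.unusedSectionVars false

open Cfsg

namespace Cfsg.Agent.H511.K547

open Matrix
open Cfsg.Agent.ClassicalGeometry.Sp4Graph Cfsg.Agent.ClassicalGeometry.Sp4GraphAut
open Cfsg.Agent.TitsThree.SpIdent Cfsg.Agent.TitsThree.WittFrame Cfsg.Agent.TitsThree.WittWeyl
open Cfsg.Agent.H687.FourK.Sp
open CoxeterSystem Cfsg.Agent.ChevalleyStructure.CoxeterGeom Cfsg.Agent.Tits.Roots Cfsg.Agent.Tits.Core
  Cfsg.Agent.Nodes.Reps Cfsg.Agent.Nodes.BNOf Cfsg.Agent.Nodes.StabComb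
  Cfsg.Agent.Nodes.Bruhat Cfsg.Agent.Nodes.TypeC Cfsg.Agent.Nodes.WittRoot
open Cfsg.Agent.H821.K547 Cfsg.Agent.H307.QE
open Cfsg.Agent.H619.Gow (cv coe_cv)

universe u

variable {F : Type u} [Field F] [Finite F] [CharP F 2]

/-- the Coxeter system -/
abbrev csB : CoxeterSystem (CoxeterMatrix.B 2) (CoxeterMatrix.B 2).Group := (CoxeterMatrix.B 2).toCoxeterSystem

/-- the root group datum -/
theorem RR (F : Type u) [Field F] [Finite F] [CharP F 2] :
    RGD csB (isCartan 2) 2 (TT 2 F) (nY 2 F) (XX 2 F) := rgdY (m := 2) (F := F) csB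

theorem hGG (F : Type u) [Field F] [Finite F] [CharP F 2] : GG csB (isCartan 2) (TT 2 F) (XX 2 F) = ⊤ :=
  GG_top (m := 2) (F := F) (by norm_num) csB

instance finW : Finite (CoxeterMatrix.B 2).Group := finite_W (CoxeterMatrix.B 2).toCoxeterSystem

/-! ### matrices -/

theorem mat_apply (g : V 2 F ≃ₗ[F] V 2 F) (i j : I4) : mat g i j = g (Pi.single j 1) i := by
  rw [mat, LinearMap.toMatrix'_apply]
  congr 1

theorem toSp_apply (y : Y 2 F) (i j : I4) : (toSp y : Matrix I4 I4 F) i j = y.1 (Pi.single j 1) i := mat_apply _ _ _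

theorem single_inr (i : Fin 2) : (Pi.single (Sum.inr i) 1 : I4 → F) = (frame 2 F).b (i, true) := rfl
theorem single_inl (i : Fin 2) : (Pi.single (Sum.inl i) 1 : I4 → F) = (frame 2 F).b (i, false) := rfl

/-- the matrix of an element of the torus -/
theorem coe_tor (t : TT 2 F) (i j : I4) : (toSp (t : Y 2 F) : Matrix I4 I4 F) i j =
    if i = j then (match j with
      | .inl k => ((ev (k, false) t : Fˣ) : F)
      | .inr k => ((ev (k, true) t : Fˣ) : F)) else 0 := by
  rw [toSp_apply]
  rcases j with j | j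
  · rw [single_inl, ev_spec, ← single_inl, Pi.smul_apply, smul_eq_mul, Pi.single_apply]
    split_ifs
    · rw [mul_one]
    · rw [mul_zero]
  · rw [single_inr, ev_spec, ← single_inr, Pi.smul_apply, smul_eq_mul, Pi.single_apply]
    split_ifs
    · rw [mul_one]
    · rw [mul_zero]

/-- `a + a⁻¹` -/
def pr (a : Fˣ) : F := (a : F) + ((a⁻¹ : Fˣ) : F)

theorem ev_false (k : Fin 2) (t : TT 2 F) : ev (k, false) t = (ev (k, true) t)⁻¹ := ev_ng (k, true) t

theorem tA_tor (t : TT 2 F) : tA (t : Y 2 F) = pr (ev (0, true) t) + pr (ev (1, true) t) := by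
  unfold tA pr
  rw [Matrix.trace]
  simp only [Matrix.diag_apply, coe_tor, Fintype.sum_sum_type, Fin.sum_univ_two, if_true, ev_false]
  ring

theorem tB_tor (t : TT 2 F) : tB (t : Y 2 F) = pr (ev (0, true) t) * pr (ev (1, true) t) := by
  unfold tB tA pr
  rw [toSp_gY, graphHom_coe, Matrix.trace]
  simp only [Matrix.diag_apply, mn_apply, Fintype.sum_sum_type, Fin.sum_univ_two, pa_inl, pa_inr, pb_inl0, pb_inl1,
    pb_inr0, pb_inr1, coe_tor, ev_false]
  simp
  ring

/-! ### conjugacy under `N` -/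

/-- conjugate under `N` -/
def NC (t t' : Y 2 F) : Prop := ∃ x ∈ NN csB (RR F).nsys, x * t * x⁻¹ = t'

theorem NC.symm {t t' : Y 2 F} (h : NC t t') : NC t' t := by
  obtain ⟨x, hx, e⟩ := h
  refine ⟨x⁻¹, inv_mem hx, ?_⟩
  rw [← e]
  group

theorem NC.trans {t t' t'' : Y 2 F} (h : NC t t') (h' : NC t' t'') : NC t t'' := by
  obtain ⟨x, hx, e⟩ := h
  obtain ⟨x', hx', e'⟩ := h'
  refine ⟨x' * x, mul_mem hx' hx, ?_⟩
  rw [← e', ← e]
  group

theorem nc_simple (i : Fin 2) (t t' : TT 2 F) (h : ∀ j, ev (j, true) t' = ev (sg i (j, true)) t) :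
    NC (t : Y 2 F) (t' : Y 2 F) := by
  refine ⟨(nY 2 F i)⁻¹, inv_mem ⟨_, rp_simple csB (RR F).nsys i⟩, ?_⟩
  have h1 : cv (TT 2 F) ((RR F).nsys.norm i) t = t' := ext_ev fun j => by rw [ev_cv (RR F).nsys, h]
  rw [← h1, coe_cv, inv_inv]

theorem hex (u v : Fˣ) : ∃ t : TT 2 F, ev (0, true) t = u ∧ ev (1, true) t = v := by
  obtain ⟨s, h1, h2⟩ := exists_tor_one (m := 2) (0 : Fin 2) u
  obtain ⟨s', h3, h4⟩ := exists_tor_one (m := 2) (1 : Fin 2) v
  refine ⟨s * s', ?_, ?_⟩
  · rw [map_mul, h1, h4 0 (by decide), mul_one]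
  · rw [map_mul, h2 1 (by decide), h3, one_mul]

theorem nc_swap {t t' : TT 2 F} (h0 : ev (0, true) t' = ev (1, true) t) (h1 : ev (1, true) t' = ev (0, true) t) :
    NC (t : Y 2 F) (t' : Y 2 F) := by
  refine nc_simple 0 t t' fun j => ?_
  have e00 : sg (0 : Fin 2) (0, true) = (1, true) := by decide
  have e01 : sg (0 : Fin 2) (1, true) = (0, true) := by decide
  fin_cases j
  · show ev (0, true) t' = ev (sg 0 (0, true)) t
    rw [h0, e00]
  · show ev (1, true) t' = ev (sg 0 (1, true)) t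
    rw [h1, e01]

theorem nc_inv_one {t t' : TT 2 F} (h0 : ev (0, true) t' = ev (0, true) t)
    (h1 : ev (1, true) t' = (ev (1, true) t)⁻¹) : NC (t : Y 2 F) (t' : Y 2 F) := by
  refine nc_simple 1 t t' fun j => ?_
  have e10 : sg (1 : Fin 2) (0, true) = (0, true) := by decide
  have e11 : sg (1 : Fin 2) (1, true) = (1, false) := by decide
  fin_cases j
  · show ev (0, true) t' = ev (sg 1 (0, true)) t
    rw [h0, e10]
  · show ev (1, true) t' = ev (sg 1 (1, true)) t
    rw [h1, e11, ev_false]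

theorem nc_inv_zero {t t' : TT 2 F} (h0 : ev (0, true) t' = (ev (0, true) t)⁻¹)
    (h1 : ev (1, true) t' = ev (1, true) t) : NC (t : Y 2 F) (t' : Y 2 F) := by
  obtain ⟨s, hs0, hs1⟩ := hex (ev (1, true) t) (ev (0, true) t)
  obtain ⟨r, hr0, hr1⟩ := hex (ev (1, true) t) (ev (0, true) t)⁻¹
  refine (nc_swap hs0 hs1).trans ((nc_inv_one (t := s) (t' := r) ?_ ?_).trans (nc_swap ?_ ?_))
  · rw [hr0, hs0]
  · rw [hr1, hs1]
  · rw [h0, hr1]
  · rw [h1, hr0]

theorem pr_eq {a b : Fˣ} (h : pr a = pr b) : a = b ∨ a = b⁻¹ := by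
  unfold pr at h
  have ha : (a : F) * ((a⁻¹ : Fˣ) : F) = 1 := a.mul_inv
  have hb : (b : F) * ((b⁻¹ : Fˣ) : F) = 1 := b.mul_inv
  have h1 : ((a : F) - b) * ((a : F) - ((b⁻¹ : Fˣ) : F)) = 0 := by
    linear_combination (a : F) * h - ha + hb
  rcases mul_eq_zero.1 h1 with h2 | h2
  · exact Or.inl (Units.ext (sub_eq_zero.1 h2))
  · exact Or.inr (Units.ext (sub_eq_zero.1 h2))

/-- **Elements of the torus with the same traces are conjugate under `N`.** -/
theorem nc_of_trace {t t' : TT 2 F} (hA : tA (t' : Y 2 F) = tA (t : Y 2 F)) (hB : tB (t' : Y 2 F) = tB (t : Y 2 F)) :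
    NC (t : Y 2 F) (t' : Y 2 F) := by
  have key : ∀ s s' : TT 2 F, pr (ev (0, true) s') = pr (ev (0, true) s) →
      pr (ev (1, true) s') = pr (ev (1, true) s) → NC (s : Y 2 F) (s' : Y 2 F) := by
    intro s s' h0 h1
    obtain ⟨r, hr0, hr1⟩ := hex (ev (0, true) s') (ev (1, true) s)
    have e1 : NC (s : Y 2 F) (r : Y 2 F) := by
      rcases pr_eq h0 with h | h
      · have : r = s := ext_ev fun j => by
          fin_cases j
          · exact hr0.trans h
          · exact hr1
        rw [this]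
        exact ⟨1, one_mem _, by group⟩
      · exact nc_inv_zero (hr0.trans h) hr1
    have e2 : NC (r : Y 2 F) (s' : Y 2 F) := by
      rcases pr_eq h1 with h | h
      · have : s' = r := ext_ev fun j => by
          fin_cases j
          · exact hr0.symm
          · exact h.trans hr1.symm
        rw [this]
        exact ⟨1, one_mem _, by group⟩
      · exact nc_inv_one hr0.symm (h.trans (by rw [hr1]))
    exact e1.trans e2
  rw [tA_tor, tA_tor] at hA
  rw [tB_tor, tB_tor] at hB
  have h1 : (pr (ev (0, true) t') - pr (ev (0, true) t)) * (pr (ev (0, true) t') - pr (ev (1, true) t)) = 0 := by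
    linear_combination pr (ev (0, true) t') * hA - hB
  rcases mul_eq_zero.1 h1 with h2 | h2
  · refine key t t' (sub_eq_zero.1 h2) ?_
    linear_combination hA - h2
  · obtain ⟨s, hs0, hs1⟩ := hex (ev (1, true) t) (ev (0, true) t)
    refine (nc_swap hs0 hs1).trans (key s t' ?_ ?_)
    · rw [hs0]
      exact sub_eq_zero.1 h2
    · rw [hs1]
      linear_combination hA - h2

/-! ### the simple root groups -/

theorem lm_Z {y : Y 2 F} {p : (frame 2 F).Adm} (hp : y.1 = (frame 2 F).Z ((1 : Fin 2), true) p) :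
    LM (toSp y : Matrix I4 I4 F) (p.c * (frame 2 F).η ((1 : Fin 2), true)) := by
  intro i j
  have hw : p.w = 0 := p.ok
  rw [toSp_apply, hp]
  have key : ∀ z : Fin 2 × Bool, (frame 2 F).Z (1, true) p ((frame 2 F).b z) =
      (frame 2 F).b z + (if z = (1, false) then p.c * (frame 2 F).η (1, true) else 0) • (frame 2 F).b (1, true) := by
    intro z
    by_cases hz : z = (1, false)
    · rw [if_pos hz, hz]
      have := Z_apply_neg (frame 2 F) (1, true) p
      rw [hw, smul_zero, add_zero] at this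
      exact this
    · rw [if_neg hz, zero_smul, add_zero]
      exact Z_apply_of_ne (frame 2 F) hz p
  rcases j with j | j
  · rw [single_inl, key, Pi.add_apply, Pi.smul_apply, ← single_inl, ← single_inr, Pi.single_apply, Pi.single_apply]
    congr 1
    by_cases hj : j = 1
    · subst hj
      rw [if_pos rfl, smul_eq_mul]
      by_cases hi : i = .inr 1
      · rw [if_pos hi, if_pos ⟨hi, rfl⟩, mul_one]
      · rw [if_neg hi, if_neg (fun h => hi h.1), mul_zero]
    · rw [if_neg (fun h => hj (congrArg Prod.fst h)), zero_smul, if_neg]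
      rintro ⟨-, h⟩
      exact hj (Sum.inl.inj h)
  · rw [single_inr, key, if_neg (by simp), zero_smul, add_zero, ← single_inr, Pi.single_apply]
    simp

theorem lm_of_mem {y : Y 2 F} (hy : y ∈ XX 2 F (sr (1 : Fin 2))) : ∃ c : F, LM (toSp y : Matrix I4 I4 F) c := by
  obtain ⟨p, hp⟩ := mem_XX_last (m := 2) (i := (1 : Fin 2)) (by decide) hy
  exact ⟨_, lm_Z hp⟩

theorem sm_X {y : Y 2 F} {t : F} (ht : y.1 = (frame 2 F).X ((0 : Fin 2), true) ((1 : Fin 2), false) t) :
    SM (toSp y : Matrix I4 I4 F) t := by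
  intro i j
  have h1 : (frame 2 F).X (0, true) (1, false) t ((frame 2 F).b (1, true)) =
      (frame 2 F).b (1, true) + t • (frame 2 F).b (0, true) :=
    X_apply_neg (frame 2 F) (x := ((0 : Fin 2), true)) (y := ((1 : Fin 2), false)) (by decide) t
  have h2 : (frame 2 F).X (0, true) (1, false) t ((frame 2 F).b (0, false)) =
      (frame 2 F).b (0, false) + t • (frame 2 F).b (1, false) := by
    have h3 := X_apply_neg' (frame 2 F) (x := ((0 : Fin 2), true)) (y := ((1 : Fin 2), false)) (by decide) t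
    have h4 : ∀ z : Fin 2 × Bool, (frame 2 F).η z = 1 := by
      intro z
      unfold Frame.η
      rw [form_ε, CharTwo.neg_eq]
      split_ifs <;> rfl
    rw [h4, h4, form_ε, form_σ, CharTwo.neg_eq, inv_one, one_mul, one_mul, one_mul, sub_eq_add_neg] at h3
    have h5 : -(t • (frame 2 F).b (1, false)) = t • (frame 2 F).b (1, false) := by
      rw [← neg_smul, CharTwo.neg_eq]
    rw [h5] at h3
    exact h3
  have h3 : (frame 2 F).X (0, true) (1, false) t ((frame 2 F).b (0, true)) = (frame 2 F).b (0, true) :=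
    X_apply_of_ne (frame 2 F) (by decide) (by decide) (by decide) t
  have h4 : (frame 2 F).X (0, true) (1, false) t ((frame 2 F).b (1, false)) = (frame 2 F).b (1, false) :=
    X_apply_of_ne (frame 2 F) (by decide) (by decide) (by decide) t
  rw [toSp_apply, ht]
  rcases j with j | j <;> fin_cases j
  · show (frame 2 F).X (0, true) (1, false) t (Pi.single (.inl 0) 1) i = _
    rw [single_inl, h2, Pi.add_apply, Pi.smul_apply, ← single_inl, ← single_inl, Pi.single_apply, Pi.single_apply]
    rcases i with i | i <;> fin_cases i <;> simp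
  · show (frame 2 F).X (0, true) (1, false) t (Pi.single (.inl 1) 1) i = _
    rw [single_inl, h4, ← single_inl, Pi.single_apply]
    rcases i with i | i <;> fin_cases i <;> simp
  · show (frame 2 F).X (0, true) (1, false) t (Pi.single (.inr 0) 1) i = _
    rw [single_inr, h3, ← single_inr, Pi.single_apply]
    rcases i with i | i <;> fin_cases i <;> simp
  · show (frame 2 F).X (0, true) (1, false) t (Pi.single (.inr 1) 1) i = _
    rw [single_inr, h1, Pi.add_apply, Pi.smul_apply, ← single_inr, ← single_inr, Pi.single_apply, Pi.single_apply]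
    rcases i with i | i <;> fin_cases i <;> simp

theorem sm_of_mem {y : Y 2 F} (hy : y ∈ XX 2 F (sr (0 : Fin 2))) : ∃ c : F, SM (toSp y : Matrix I4 I4 F) c := by
  obtain ⟨t, ht⟩ := mem_XX_zero hy
  exact ⟨t, sm_X ht⟩

theorem LM.ne_zero {y : Y 2 F} {c : F} (h : LM (toSp y : Matrix I4 I4 F) c) (hy : y ≠ 1) : c ≠ 0 := by
  rintro rfl
  apply hy
  apply toSp_injective
  apply Subtype.ext
  ext i j
  rw [h, map_one]
  show _ = (1 : Matrix I4 I4 F) i j
  rw [Matrix.one_apply, ite_self, add_zero]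

theorem SM.eq_one {y : Y 2 F} (h : SM (toSp y : Matrix I4 I4 F) 0) : y = 1 := by
  apply toSp_injective
  apply Subtype.ext
  ext i j
  rw [h, map_one]
  show _ = (1 : Matrix I4 I4 F) i j
  rw [Matrix.one_apply, ite_self, ite_self, add_zero, add_zero]

end Cfsg.Agent.H511.K547
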